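import Mathlib.RingTheory.Ideal.KrullsHeightTheorem
import Mathlib.RingTheory.KrullDimension.Polynomial
import Mathlib.RingTheory.KrullDimension.NonZeroDivisors
import Mathlib.RingTheory.Ideal.MinimalPrime.Localization
import Mathlib.RingTheory.KrullDimension.Field

/-!
If `Q` is a prime of a Noetherian algebra `C` over a field `k`, of height `n`, minimal over
`n` elements `s₁, …, sₙ`, then `s₁, …, sₙ` are algebraically independent over `k`.
-/

set_option autoImplicit false

namespace Groth.Agent.Old.H8.DimBound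

universe u v

open MvPolynomial

theorem height_map_mk_eq_zero {C : Type v} [CommRing C] (I Q : Ideal C) [Q.IsPrime]
    (h : Q ∈ I.minimalPrimes) : (Q.map (Ideal.Quotient.mk I)).height = 0 := by
  have hIQ : I ≤ Q := h.1.2
  have hker : RingHom.ker (Ideal.Quotient.mk I) ≤ Q := by rwa [Ideal.mk_ker]
  have : (Q.map (Ideal.Quotient.mk I)).IsPrime :=
    Ideal.map_isPrime_of_surjective Ideal.Quotient.mk_surjective hker
  rw [Ideal.height_eq_zero_iff]
  have hcomap : (Q.map (Ideal.Quotient.mk I)).comap (Ideal.Quotient.mk I) = Q := by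
    rw [Ideal.comap_map_of_surjective _ Ideal.Quotient.mk_surjective,
      ← RingHom.ker_eq_comap_bot, sup_eq_left]
    exact hker
  refine ⟨⟨inferInstance, bot_le⟩, ?_⟩
  rintro P ⟨hP, -⟩ hle
  have := hP
  have h1 : Q ≤ P.comap (Ideal.Quotient.mk I) := by
    refine h.2 ⟨inferInstance, ?_⟩ ?_
    · intro x hx
      rw [Ideal.mem_comap, Ideal.Quotient.eq_zero_iff_mem.mpr hx]
      exact P.zero_mem
    · rw [← hcomap]
      exact Ideal.comap_mono hle
  exact Ideal.map_le_iff_le_comap.mpr h1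

/-- A regular system of parameters-type statement: elements `s` of a Noetherian algebra over a
field with a prime `Q` minimal over them whose height is the number of elements are algebraically
independent. -/
theorem ker_aeval_eq_bot {k : Type u} {C : Type v} [Field k] [CommRing C] [Algebra k C]
    [IsNoetherianRing C] (Q : Ideal C) [Q.IsPrime] {n : ℕ} (hn : Q.height = n)
    (s : Fin n → C) (hs : Q ∈ (Ideal.span (Set.range s)).minimalPrimes) :
    RingHom.ker (MvPolynomial.aeval s : MvPolynomial (Fin n) k →ₐ[k] C) = ⊥ := by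
  rw [eq_bot_iff]
  intro F hF
  by_contra hF0
  have hF0 : F ≠ 0 := hF0
  let J : Ideal (MvPolynomial (Fin n) k) := Ideal.span {F}
  let ψ : (MvPolynomial (Fin n) k ⧸ J) →+* C :=
    Ideal.Quotient.lift J (MvPolynomial.aeval s : MvPolynomial (Fin n) k →ₐ[k] C).toRingHom (by
      intro a ha
      obtain ⟨b, rfl⟩ := Ideal.mem_span_singleton'.mp ha
      have : (MvPolynomial.aeval s : MvPolynomial (Fin n) k →ₐ[k] C) F = 0 := hF
      simp [this])
  let : Algebra (MvPolynomial (Fin n) k ⧸ J) C := ψ.toAlgebra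
  let p₁ : Ideal (MvPolynomial (Fin n) k ⧸ J) := Q.comap ψ
  have : p₁.IsPrime := inferInstanceAs (Q.comap ψ).IsPrime
  have : Q.LiesOver p₁ := ⟨rfl⟩
  have h1 := Ideal.height_le_height_add_of_liesOver p₁ Q
  have hmin : Q ∈ (p₁.map (algebraMap (MvPolynomial (Fin n) k ⧸ J) C)).minimalPrimes := by
    refine ⟨⟨inferInstance, ?_⟩, ?_⟩
    · exact Ideal.map_le_iff_le_comap.mpr le_rfl
    · rintro P ⟨hP, hPJ⟩ hPQ
      refine hs.2 ⟨hP, ?_⟩ hPQ
      rw [Ideal.span_le]
      rintro _ ⟨i, rfl⟩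
      apply hPJ
      have : s i = algebraMap (MvPolynomial (Fin n) k ⧸ J) C (Ideal.Quotient.mk J (X i)) := by
        change _ = ψ _
        simp [ψ]
      rw [this]
      apply Ideal.mem_map_of_mem
      change ψ _ ∈ Q
      have : ψ (Ideal.Quotient.mk J (X i)) = s i := by simp [ψ]
      rw [this]
      exact hs.1.2 (Ideal.subset_span ⟨i, rfl⟩)
  rw [height_map_mk_eq_zero _ _ hmin, add_zero, hn] at h1
  have h2 : (p₁.height : WithBot ℕ∞) ≤ ringKrullDim (MvPolynomial (Fin n) k ⧸ J) :=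
    Ideal.height_le_ringKrullDim_of_ne_top (Ideal.IsPrime.ne_top inferInstance)
  have h3 : ringKrullDim (MvPolynomial (Fin n) k ⧸ J) + 1 ≤ ringKrullDim (MvPolynomial (Fin n) k) :=
    ringKrullDim_quotient_succ_le_of_nonZeroDivisor (mem_nonZeroDivisors_of_ne_zero hF0)
  rw [MvPolynomial.ringKrullDim_of_isNoetherianRing, ringKrullDim_eq_zero_of_field] at h3
  have h4 : ((n : ℕ∞) : WithBot ℕ∞) ≤ (p₁.height : WithBot ℕ∞) := by exact_mod_cast h1
  have h5 : ((n : ℕ∞) : WithBot ℕ∞) + 1 ≤ ((n : ℕ∞) : WithBot ℕ∞) := by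
    refine (add_le_add_left (h4.trans h2) 1).trans (h3.trans ?_)
    simp
  have h6 : ((n + 1 : ℕ∞) : WithBot ℕ∞) ≤ ((n : ℕ∞) : WithBot ℕ∞) := by exact_mod_cast h5
  have h7 : ((n : ℕ∞) + 1) ≤ (n : ℕ∞) := by exact_mod_cast h6
  have h8 : n + 1 ≤ n := by exact_mod_cast h7
  omega

end Groth.Agent.Old.H8.DimBound
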