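import Groth.Agent.Old.H8.ValCase
import Mathlib.RingTheory.Valuation.LocalSubring
import Mathlib.RingTheory.FiniteType
import Mathlib.RingTheory.Localization.AtPrime.Basic

/-!
Lifting a closed point of a special fibre of a finite type extension of domains to a
closed point of the generic fibre, outside a proper closed subset.
-/

set_option autoImplicit false

namespace Groth.Agent.Old.H8.DomainCase

universe u v

open IsLocalRing

/-- Maximality of a prime from algebraicity of generators modulo it. -/
theorem isMaximal_of_gen {V : Type u} {C : Type v} [CommRing V] [IsLocalRing V] [CommRing C]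
    [Algebra V C] (q : Ideal C) [q.IsPrime] (hq : q.comap (algebraMap V C) = maximalIdeal V)
    (T : Set C) (hT : Algebra.adjoin V T = ⊤)
    (halg : ∀ t ∈ T, ∃ F : Polynomial V, F.map (residue V) ≠ 0 ∧ Polynomial.aeval t F ∈ q) :
    q.IsMaximal := by
  let k := ResidueField V
  let ι : k →+* C ⧸ q := Ideal.Quotient.lift (maximalIdeal V)
    ((Ideal.Quotient.mk q).comp (algebraMap V C)) (by
      intro a ha
      rw [RingHom.comp_apply, Ideal.Quotient.eq_zero_iff_mem, ← Ideal.mem_comap, hq]
      exact ha)
  let : Algebra k (C ⧸ q) := ι.toAlgebra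
  have hcomp : (algebraMap k (C ⧸ q)).comp (residue V) =
      (Ideal.Quotient.mk q).comp (algebraMap V C) := rfl
  have hint : ∀ x : C, IsIntegral k (Ideal.Quotient.mk q x) := by
    intro x
    have hx : x ∈ Algebra.adjoin V T := hT ▸ Algebra.mem_top
    induction hx using Algebra.adjoin_induction with
    | mem x hx =>
      obtain ⟨F, hF0, hF⟩ := halg x hx
      rw [← isAlgebraic_iff_isIntegral]
      refine ⟨F.map (residue V), hF0, ?_⟩
      rw [Polynomial.aeval_def, Polynomial.eval₂_map, hcomp, ← Polynomial.hom_eval₂,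
        ← Polynomial.aeval_def, Ideal.Quotient.eq_zero_iff_mem]
      exact hF
    | algebraMap v =>
      have : Ideal.Quotient.mk q (algebraMap V C v) = algebraMap k (C ⧸ q) (residue V v) := rfl
      rw [this]
      exact isIntegral_algebraMap
    | add x y hx hy h1 h2 =>
      rw [map_add]
      exact h1.add h2
    | mul x y hx hy h1 h2 =>
      rw [map_mul]
      exact h1.mul h2
  have : Algebra.IsIntegral k (C ⧸ q) := ⟨by
    intro z
    obtain ⟨x, rfl⟩ := Ideal.Quotient.mk_surjective z
    exact hint x⟩
  exact Ideal.Quotient.maximal_of_isField _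
    (isField_of_isIntegral_of_isField' (R := k) (Field.toIsField k))

theorem isAlgebraic_comap {A B V C : Type*} [CommRing A] [CommRing B] [CommRing V] [IsDomain V]
    [CommRing C] [Algebra A B] [Algebra A V] [Algebra V C] [Algebra.IsAlgebraic A V]
    (g : B →+* C) (hcomm : ∀ a, g (algebraMap A B a) = algebraMap V C (algebraMap A V a))
    (q₁ : Ideal C) [Algebra.IsAlgebraic V (C ⧸ q₁)] : Algebra.IsAlgebraic A (B ⧸ q₁.comap g) := by
  let φ : A →+* (C ⧸ q₁) := (algebraMap V (C ⧸ q₁)).comp (algebraMap A V)
  let : Algebra A (C ⧸ q₁) := φ.toAlgebra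
  have : IsScalarTower A V (C ⧸ q₁) := IsScalarTower.of_algebraMap_eq' rfl
  have halg2 : Algebra.IsAlgebraic A (C ⧸ q₁) := Algebra.IsAlgebraic.trans A V (C ⧸ q₁)
  let ψ : (B ⧸ q₁.comap g) →+* (C ⧸ q₁) := Ideal.quotientMap q₁ g le_rfl
  have hψinj : Function.Injective ψ := Ideal.quotientMap_injective
  let ψ' : (B ⧸ q₁.comap g) →ₐ[A] (C ⧸ q₁) :=
    { ψ with
      commutes' := by
        intro a
        change Ideal.Quotient.mk q₁ (g (algebraMap A B a)) = _
        rw [hcomm]
        rfl }
  refine ⟨fun z => ?_⟩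
  exact (isAlgebraic_algHom_iff ψ' hψinj).mp (halg2.isAlgebraic _)

theorem exists_prime_domain {A : Type u} {B : Type v} [CommRing A] [IsDomain A] [CommRing B]
    [IsDomain B] [Algebra A B] [FaithfulSMul A B] [Algebra.FiniteType A B]
    (q' : Ideal B) [q'.IsPrime] (hne : q'.comap (algebraMap A B) ≠ ⊥)
    (halg : ∀ b : B, ∃ f : Polynomial A,
      f.map (Ideal.Quotient.mk (q'.comap (algebraMap A B))) ≠ 0 ∧ Polynomial.aeval b f ∈ q')
    (h : B) (hh : h ≠ 0) :
    ∃ q₁ : Ideal B, q₁.IsPrime ∧ q₁ ≤ q' ∧ q₁.comap (algebraMap A B) = ⊥ ∧ h ∉ q₁ ∧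
      Algebra.IsAlgebraic A (B ⧸ q₁) := by
  classical
  let L := FractionRing B
  let K := FractionRing A
  let : Algebra K L := FractionRing.liftAlgebra A L
  have hKL : IsScalarTower A K L := inferInstance
  have hunits : ∀ y : q'.primeCompl, IsUnit (algebraMap B L y) := by
    rintro ⟨y, hy⟩
    refine IsUnit.mk0 _ ?_
    intro h0
    have : y = 0 := by simpa using h0
    exact hy (this ▸ q'.zero_mem)
  let f : Localization.AtPrime q' →+* L := IsLocalization.lift hunits
  obtain ⟨W, hW, hloc⟩ := IsLocalRing.exists_factor_valuationRing f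
  have hfB : ∀ b : B, f (algebraMap B _ b) = algebraMap B L b := fun b =>
    IsLocalization.lift_eq hunits b
  have hBW : ∀ b : B, algebraMap B L b ∈ W := by
    intro b
    rw [← hfB]
    exact hW _
  have hBm : ∀ b : B, b ∈ q' ↔ (⟨algebraMap B L b, hBW b⟩ : W) ∈ maximalIdeal W := by
    intro b
    have e : (⟨algebraMap B L b, hBW b⟩ : W) =
        (f.codRestrict W.toSubring hW) (algebraMap B _ b) := by
      apply Subtype.ext
      exact (hfB b).symm
    have h1 : IsUnit ((f.codRestrict W.toSubring hW) (algebraMap B (Localization.AtPrime q') b)) ↔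
        IsUnit (algebraMap B (Localization.AtPrime q') b) :=
      ⟨fun hu => hloc.map_nonunit _ hu, fun hu => hu.map _⟩
    have h2 : IsUnit (algebraMap B (Localization.AtPrime q') b) ↔ b ∉ q' := by
      rw [IsLocalization.AtPrime.isUnit_to_map_iff _ q']
      rfl
    have h3 : IsUnit (⟨algebraMap B L b, hBW b⟩ : W) ↔ b ∉ q' := by
      rw [← h2, ← h1, ← e]
    rw [mem_maximalIdeal, mem_nonunits_iff, h3, not_not]
  let V : ValuationSubring K := W.comap (algebraMap K L)
  have hVm : ∀ v : V, v ∈ maximalIdeal V ↔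
      (⟨algebraMap K L v, v.2⟩ : W) ∈ maximalIdeal W := by
    rintro ⟨v, hv⟩
    rw [mem_maximalIdeal, mem_maximalIdeal, mem_nonunits_iff, mem_nonunits_iff, not_iff_not]
    constructor
    · rintro hu
      obtain ⟨w, hw⟩ := isUnit_iff_exists_inv.mp hu
      refine isUnit_iff_exists_inv.mpr ⟨⟨algebraMap K L w, w.2⟩, ?_⟩
      apply Subtype.ext
      have := congrArg (fun z : V => algebraMap K L z) hw
      simpa using this
    · intro hu
      obtain ⟨w, hw⟩ := isUnit_iff_exists_inv.mp hu
      have hw' : algebraMap K L v * (w : L) = 1 := congrArg Subtype.val hw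
      have hv0 : v ≠ 0 := by
        rintro rfl
        simp at hw'
      have hwv : (w : L) = algebraMap K L v⁻¹ := by
        rw [map_inv₀]
        exact eq_inv_of_mul_eq_one_right hw'
      have hvinv : v⁻¹ ∈ V := by
        rw [ValuationSubring.mem_comap, ← hwv]
        exact w.2
      refine isUnit_iff_exists_inv.mpr ⟨⟨v⁻¹, hvinv⟩, ?_⟩
      apply Subtype.ext
      exact mul_inv_cancel₀ hv0
  have hAL : ∀ a : A, algebraMap K L (algebraMap A K a) = algebraMap B L (algebraMap A B a) := by
    intro a
    rw [← IsScalarTower.algebraMap_apply, ← IsScalarTower.algebraMap_apply]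
  have hAV : ∀ a : A, algebraMap A K a ∈ V := by
    intro a
    rw [ValuationSubring.mem_comap, hAL]
    exact hBW _
  let gAV : A →+* V := (algebraMap A K).codRestrict V.toSubring hAV
  obtain ⟨S, hS⟩ := (Algebra.FiniteType.out : (⊤ : Subalgebra A B).FG)
  let T : Set L := algebraMap B L '' (S : Set B)
  have hTfin : T.Finite := S.finite_toSet.image _
  let BR : Subalgebra V L := Algebra.adjoin V T
  have hft : Algebra.FiniteType V BR := Algebra.FiniteType.adjoin_of_finite hTfin
  have hVL : ∀ v : V, algebraMap V L v = algebraMap K L v := fun v => rfl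
  have hBRW : ∀ x ∈ BR, x ∈ W := by
    intro x hx
    induction hx using Algebra.adjoin_induction with
    | mem x hx =>
      obtain ⟨b, -, rfl⟩ := hx
      exact hBW b
    | algebraMap v => exact v.2
    | add x y _ _ hx hy => exact W.add_mem _ _ hx hy
    | mul x y _ _ hx hy => exact W.mul_mem _ _ hx hy
  have hBBR : ∀ b : B, algebraMap B L b ∈ BR := by
    intro b
    have hb : b ∈ Algebra.adjoin A (S : Set B) := hS ▸ Algebra.mem_top
    induction hb using Algebra.adjoin_induction with
    | mem b hb => exact Algebra.subset_adjoin ⟨b, hb, rfl⟩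
    | algebraMap a =>
      rw [← hAL]
      exact BR.algebraMap_mem ⟨algebraMap A K a, hAV a⟩
    | add x y _ _ hx hy =>
      rw [map_add]
      exact BR.add_mem hx hy
    | mul x y _ _ hx hy =>
      rw [map_mul]
      exact BR.mul_mem hx hy
  let gB : B →+* BR := (algebraMap B L).codRestrict BR hBBR
  let j : BR →+* W := (BR.val : BR →+* L).codRestrict W.toSubring (fun x => hBRW x x.2)
  let qR : Ideal BR := (maximalIdeal W).comap j
  have hqRp : qR.IsPrime := inferInstance
  have hgBq : ∀ b : B, gB b ∈ qR ↔ b ∈ q' := fun b => (hBm b).symm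
  have hVq : ∀ v : V, algebraMap V BR v ∈ qR ↔ v ∈ maximalIdeal V := fun v => (hVm v).symm
  have hqRc : qR.comap (algebraMap V BR) = maximalIdeal V := by
    ext v
    exact hVq v
  have hcommA : ∀ a : A, gB (algebraMap A B a) = algebraMap V BR (gAV a) := by
    intro a
    apply Subtype.ext
    exact (hAL a).symm
  have hgAVm : ∀ a : A, gAV a ∈ maximalIdeal V ↔ a ∈ q'.comap (algebraMap A B) := by
    intro a
    rw [← hVq, ← hcommA, hgBq]
    rfl
  -- maximality
  have hqRmax : qR.IsMaximal := by
    refine isMaximal_of_gen qR hqRc _ (Algebra.adjoin_adjoin_coe_preimage (R := V) (s := T)) ?_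
    rintro ⟨_, hx⟩ ⟨b, -, rfl⟩
    obtain ⟨F, hF0, hF⟩ := halg b
    refine ⟨F.map gAV, ?_, ?_⟩
    · intro h0
      apply hF0
      ext i
      have h1 := congrArg (fun p => Polynomial.coeff p i) h0
      simp only [Polynomial.coeff_map, Polynomial.coeff_zero] at h1
      rw [Polynomial.coeff_map, Polynomial.coeff_zero, Ideal.Quotient.eq_zero_iff_mem,
        ← hgAVm]
      exact (residue_eq_zero_iff _).mp h1
    · have hcomp : (algebraMap V BR).comp gAV = gB.comp (algebraMap A B) := by
        ext a
        exact (congrArg Subtype.val (hcommA a)).symm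
      change Polynomial.aeval (gB b) (F.map gAV) ∈ qR
      rw [Polynomial.aeval_def, Polynomial.eval₂_map, hcomp, ← Polynomial.hom_eval₂, hgBq,
        ← Polynomial.aeval_def]
      exact hF
  have hVbot : maximalIdeal V ≠ ⊥ := by
    obtain ⟨a, ha, ha0⟩ := Submodule.exists_mem_ne_zero_of_ne_bot hne
    intro hbot
    have h1 : gAV a ∈ maximalIdeal V := (hgAVm a).mpr ha
    rw [hbot, Ideal.mem_bot] at h1
    have h2 : algebraMap A K a = 0 := congrArg Subtype.val h1
    exact ha0 (by simpa using h2)
  have hfaith : FaithfulSMul V BR := by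
    rw [faithfulSMul_iff_algebraMap_injective]
    intro v w hvw
    have h1 : algebraMap K L v = algebraMap K L w := congrArg Subtype.val hvw
    exact Subtype.ext ((algebraMap K L).injective h1)
  have hBLinj : Function.Injective (algebraMap B L) := IsFractionRing.injective B L
  have hgh : gB h ≠ 0 := by
    intro h0
    have h1 : algebraMap B L h = 0 := congrArg Subtype.val h0
    exact hh (hBLinj (by rw [h1, map_zero]))
  obtain ⟨q₁, hq₁p, hq₁le, hq₁c, hhq₁, hq₁alg⟩ :=
    Groth.Agent.Old.H8.ValCase.exists_prime_val hVbot qR hqRc (gB h) hgh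
  have hprime : (q₁.comap gB).IsPrime := inferInstance
  refine ⟨q₁.comap gB, hprime, ?_, ?_, hhq₁, ?_⟩
  · intro b hb
    exact (hgBq b).mp (hq₁le hb)
  · rw [eq_bot_iff]
    intro a ha
    have h1 : algebraMap V BR (gAV a) ∈ q₁ := by
      rw [← hcommA]
      exact ha
    rw [← Ideal.mem_comap, hq₁c, Ideal.mem_bot] at h1
    have h2 : algebraMap A K a = 0 := congrArg Subtype.val h1
    have h3 : a = 0 := by simpa using h2
    exact h3
  · let : Algebra A V := gAV.toAlgebra
    have hAVK : IsScalarTower A V K := IsScalarTower.of_algebraMap_eq' rfl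
    have halgV : Algebra.IsAlgebraic A V := by
      refine ⟨fun v => ?_⟩
      have h1 : IsAlgebraic A (v : K) := by
        have := (IsFractionRing.isAlgebraic_iff A K K).mpr
          (isAlgebraic_algebraMap (A := K) (v : K) : IsAlgebraic K (algebraMap K K (v : K)))
        exact this
      exact (isAlgebraic_algebraMap_iff (R := A) (S := V) (A := K)
        (Subtype.val_injective)).mp h1
    exact isAlgebraic_comap (V := V) gB hcommA q₁

end Groth.Agent.Old.H8.DomainCase
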