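import Groth.Agent.Old.H8.DomainCase
import Mathlib.RingTheory.LocalRing.ResidueField.Fiber
import Mathlib.RingTheory.Localization.Integral

/-!
Lifting a closed point of a fibre of a finite type ring map to a closed point of another
fibre, between given specializing primes.
-/

set_option autoImplicit false

namespace Groth.Agent.Old.H8.General

universe u v

open IsLocalRing TensorProduct

theorem clear_denoms {A₁ κ D : Type*} [CommRing A₁] [IsDomain A₁] [Field κ] [Algebra A₁ κ]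
    [IsFractionRing A₁ κ] [CommRing D] [Algebra κ D] (z : D) (hz : IsAlgebraic κ z) :
    ∃ g : Polynomial A₁, g ≠ 0 ∧
      g.eval₂ ((algebraMap κ D).comp (algebraMap A₁ κ)) z = 0 := by
  let : Algebra A₁ D := ((algebraMap κ D).comp (algebraMap A₁ κ)).toAlgebra
  have : IsScalarTower A₁ κ D := IsScalarTower.of_algebraMap_eq' rfl
  obtain ⟨g, hg0, hg⟩ := (IsFractionRing.isAlgebraic_iff A₁ κ D).mpr hz
  exact ⟨g, hg0, hg⟩

/-- A point closed in its fibre is algebraic. -/
theorem algebraic_of_closed {A : Type u} {B : Type v} [CommRing A] [CommRing B] [Algebra A B]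
    [Algebra.FiniteType A B] (q' : Ideal B) [q'.IsPrime]
    (hcl : ∀ Q : Ideal B, Q.IsPrime → q' ≤ Q →
      Q.comap (algebraMap A B) = q'.comap (algebraMap A B) → Q = q') (b : B) :
    ∃ f : Polynomial A, f.map (Ideal.Quotient.mk (q'.comap (algebraMap A B))) ≠ 0 ∧
      Polynomial.aeval b f ∈ q' := by
  let p' : Ideal A := q'.comap (algebraMap A B)
  have hp' : p'.IsPrime := inferInstance
  have hlo : q'.LiesOver p' := ⟨rfl⟩
  let e := PrimeSpectrum.primesOverOrderIsoFiber A B p'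
  let Q : PrimeSpectrum (p'.Fiber B) := e ⟨q', ‹_›, hlo⟩
  have hQmax : Q.asIdeal.IsMaximal := by
    rw [← PrimeSpectrum.isMax_iff]
    intro Q₂ hQ₂
    have h1 : e.symm Q ≤ e.symm Q₂ := e.symm.monotone hQ₂
    have h2 : e.symm Q = ⟨q', ‹_›, hlo⟩ := e.symm_apply_apply _
    rw [h2] at h1
    have h3 : (e.symm Q₂).1 = q' := by
      refine hcl _ (e.symm Q₂).2.1 h1 ?_
      have := (e.symm Q₂).2.2.over
      exact this.symm
    have h4 : e.symm Q₂ = e.symm Q := by
      rw [h2]
      exact Subtype.ext h3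
    exact (e.symm.injective h4).le
  have hcomap : Q.asIdeal.comap Algebra.TensorProduct.includeRight.toRingHom = q' :=
    congrArg Subtype.val (e.symm_apply_apply ⟨q', ‹_›, hlo⟩)
  let κ := p'.ResidueField
  let F := p'.Fiber B
  let D := F ⧸ Q.asIdeal
  have hDft : Algebra.FiniteType κ F := inferInstance
  have hDft' : Algebra.FiniteType κ D := inferInstance
  let : Field D := Ideal.Quotient.field Q.asIdeal
  have hfin : Module.Finite κ D := finite_of_finite_type_of_isJacobsonRing κ D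
  let θ : B →+* D := (Ideal.Quotient.mk Q.asIdeal).comp
    (Algebra.TensorProduct.includeRight : B →ₐ[A] κ ⊗[A] B).toRingHom
  have hθ : ∀ x : B, θ x = 0 ↔ x ∈ q' := by
    intro x
    rw [← hcomap]
    exact Ideal.Quotient.eq_zero_iff_mem
  have hz : IsAlgebraic κ (θ b) := Algebra.IsAlgebraic.isAlgebraic _
  obtain ⟨g, hg0, hg⟩ := clear_denoms (A₁ := A ⧸ p') (κ := κ) (θ b) hz
  obtain ⟨f, rfl⟩ := Polynomial.map_surjective _ (Ideal.Quotient.mk_surjective (I := p')) g
  refine ⟨f, hg0, ?_⟩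
  rw [← hθ]
  have hcomp : ((algebraMap κ D).comp (algebraMap (A ⧸ p') κ)).comp (Ideal.Quotient.mk p') =
      θ.comp (algebraMap A B) := by
    ext a
    have h1 : (algebraMap (A ⧸ p') κ) (Ideal.Quotient.mk p' a) = algebraMap A κ a := rfl
    have h2 : (Algebra.TensorProduct.includeRight : B →ₐ[A] κ ⊗[A] B) (algebraMap A B a) =
        algebraMap κ F (algebraMap A κ a) := by
      rw [AlgHom.commutes]
      rfl
    change (algebraMap κ D) ((algebraMap (A ⧸ p') κ) (Ideal.Quotient.mk p' a)) =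
      Ideal.Quotient.mk Q.asIdeal
        ((Algebra.TensorProduct.includeRight : B →ₐ[A] κ ⊗[A] B) (algebraMap A B a))
    rw [h1, h2]
    rfl
  rw [Polynomial.aeval_def, Polynomial.hom_eval₂, ← hcomp, ← Polynomial.eval₂_map]
  exact hg

theorem eq_of_isAlgebraic {A : Type u} {B : Type v} [CommRing A] [CommRing B] [Algebra A B]
    (q₁ : Ideal B) [q₁.IsPrime] [Algebra.IsAlgebraic A (B ⧸ q₁)] (Q : Ideal B) (hQ : q₁ ≤ Q)
    (hQc : Q.comap (algebraMap A B) = ⊥) : Q = q₁ := by
  refine le_antisymm ?_ hQ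
  intro x hx
  by_contra hxq
  have hx0 : Ideal.Quotient.mk q₁ x ≠ 0 := by
    rwa [Ne, Ideal.Quotient.eq_zero_iff_mem]
  obtain ⟨r, hr0, hdvd⟩ := (Algebra.IsAlgebraic.isAlgebraic (R := A)
    (Ideal.Quotient.mk q₁ x)).exists_nonzero_dvd (mem_nonZeroDivisors_of_ne_zero hx0)
  apply hr0
  obtain ⟨c, hc⟩ := hdvd
  obtain ⟨c, rfl⟩ := Ideal.Quotient.mk_surjective c
  have h1 : Ideal.Quotient.mk q₁ (algebraMap A B r) = Ideal.Quotient.mk q₁ (x * c) := by
    rw [map_mul, ← hc]
    rfl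
  rw [Ideal.Quotient.eq] at h1
  have h2 : algebraMap A B r ∈ Q := by
    have h3 := Q.add_mem (hQ h1) (Q.mul_mem_right c hx)
    simpa using h3
  have h4 : r ∈ Q.comap (algebraMap A B) := h2
  rwa [hQc, Ideal.mem_bot] at h4

theorem exists_prime {A : Type u} {B : Type v} [CommRing A] [CommRing B] [Algebra A B]
    [Algebra.FiniteType A B]
    (q q' : Ideal B) [q.IsPrime] [q'.IsPrime] (hqq' : q ≤ q')
    (hne : q.comap (algebraMap A B) ≠ q'.comap (algebraMap A B))
    (hcl : ∀ Q : Ideal B, Q.IsPrime → q' ≤ Q →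
      Q.comap (algebraMap A B) = q'.comap (algebraMap A B) → Q = q')
    (h : B) (hh : h ∉ q) :
    ∃ q₁ : Ideal B, q₁.IsPrime ∧ q ≤ q₁ ∧ q₁ ≤ q' ∧
      q₁.comap (algebraMap A B) = q.comap (algebraMap A B) ∧ h ∉ q₁ ∧
      ∀ Q : Ideal B, Q.IsPrime → q₁ ≤ Q →
        Q.comap (algebraMap A B) = q.comap (algebraMap A B) → Q = q₁ := by
  let p : Ideal A := q.comap (algebraMap A B)
  let A₀ := A ⧸ p
  let B₀ := B ⧸ q
  let πA : A →+* A₀ := Ideal.Quotient.mk p
  let πB : B →+* B₀ := Ideal.Quotient.mk q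
  have hπA : Function.Surjective πA := Ideal.Quotient.mk_surjective
  have hπB : Function.Surjective πB := Ideal.Quotient.mk_surjective
  let g : A₀ →+* B₀ := Ideal.quotientMap q (algebraMap A B) le_rfl
  have hg : Function.Injective g := Ideal.quotientMap_injective
  let : Algebra A₀ B₀ := g.toAlgebra
  have hsq : ∀ a, algebraMap A₀ B₀ (πA a) = πB (algebraMap A B a) := fun a => rfl
  have hsqc : (algebraMap A₀ B₀).comp πA = πB.comp (algebraMap A B) := rfl
  have hst : IsScalarTower A A₀ B₀ := IsScalarTower.of_algebraMap_eq' rfl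
  have hft : Algebra.FiniteType A B₀ := inferInstance
  have hft' : Algebra.FiniteType A₀ B₀ := Algebra.FiniteType.of_restrictScalars_finiteType A A₀ B₀
  have hfaith : FaithfulSMul A₀ B₀ := (faithfulSMul_iff_algebraMap_injective A₀ B₀).mpr hg
  have hker : RingHom.ker πB = q := Ideal.mk_ker
  have hcm : ∀ y : Ideal B, q ≤ y → (y.map πB).comap πB = y := by
    intro y hy
    rw [Ideal.comap_map_of_surjective πB hπB, ← RingHom.ker_eq_comap_bot, sup_eq_left, hker]
    exact hy
  have hpr : ∀ y : Ideal B, y.IsPrime → q ≤ y → (y.map πB).IsPrime := by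
    intro y hy hqy
    exact Ideal.map_isPrime_of_surjective hπB (hker.le.trans hqy)
  -- compatibility of contraction
  have hcomp : ∀ y : Ideal B₀, (y.comap (algebraMap A₀ B₀)).comap πA =
      (y.comap πB).comap (algebraMap A B) := by
    intro y
    rw [Ideal.comap_comap, Ideal.comap_comap, hsqc]
  have hbot : (⊥ : Ideal A₀).comap πA = p := by
    rw [← RingHom.ker_eq_comap_bot]
    exact Ideal.mk_ker
  have hcinj : ∀ y z : Ideal A₀, y.comap πA = z.comap πA → y = z := by
    intro y z hyz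
    rw [← Ideal.map_comap_of_surjective πA hπA y, hyz, Ideal.map_comap_of_surjective πA hπA z]
  let q'₀ : Ideal B₀ := q'.map πB
  have hq'₀ : q'₀.IsPrime := hpr q' ‹_› hqq'
  have hq'₀c : q'₀.comap πB = q' := hcm q' hqq'
  have hq'₀A : (q'₀.comap (algebraMap A₀ B₀)).comap πA = q'.comap (algebraMap A B) := by
    rw [hcomp, hq'₀c]
  have hne₀ : q'₀.comap (algebraMap A₀ B₀) ≠ ⊥ := by
    intro h0
    rw [h0, hbot] at hq'₀A
    exact hne hq'₀A
  have hcl₀ : ∀ Q : Ideal B₀, Q.IsPrime → q'₀ ≤ Q →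
      Q.comap (algebraMap A₀ B₀) = q'₀.comap (algebraMap A₀ B₀) → Q = q'₀ := by
    intro Q hQ hle hQc
    have h1 : Q.comap πB = q' := by
      refine hcl _ inferInstance ?_ ?_
      · rw [← hq'₀c]
        exact Ideal.comap_mono hle
      · rw [← hcomp, hQc, hq'₀A]
    rw [← Ideal.map_comap_of_surjective πB hπB Q, h1]
  have halg := algebraic_of_closed (A := A₀) (B := B₀) q'₀ hcl₀
  have hh₀ : πB h ≠ 0 := by
    rwa [Ne, Ideal.Quotient.eq_zero_iff_mem]
  obtain ⟨q₁₀, hq₁p, hq₁le, hq₁c, hhq₁, hq₁alg⟩ :=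
    Groth.Agent.Old.H8.DomainCase.exists_prime_domain q'₀ hne₀ halg (πB h) hh₀
  have hqle : ∀ y : Ideal B₀, q ≤ y.comap πB := by
    intro y x hx
    rw [Ideal.mem_comap, Ideal.Quotient.eq_zero_iff_mem.mpr hx]
    exact y.zero_mem
  refine ⟨q₁₀.comap πB, inferInstance, hqle _, ?_, ?_, hhq₁, ?_⟩
  · rw [← hq'₀c]
    exact Ideal.comap_mono hq₁le
  · rw [← hcomp, hq₁c, hbot]
  · intro Q hQ hle hQc
    have hqQ : q ≤ Q := (hqle _).trans hle
    have h1 : Q.map πB = q₁₀ := by
      refine eq_of_isAlgebraic (A := A₀) q₁₀ _ ?_ ?_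
      · rw [← Ideal.map_comap_of_surjective πB hπB q₁₀]
        exact Ideal.map_mono hle
      · apply hcinj
        rw [hcomp, hcm Q hqQ, hQc, hbot]
    rw [← hcm Q hqQ, h1]

end Groth.Agent.Old.H8.General
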