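import Mathlib.RingTheory.ZariskisMainTheorem
import Mathlib.RingTheory.IntegralClosure.GoingDown

/-!
Going down at a quasi-finite point of an extension of domains with normal base: via Zariski's main
theorem.
-/

set_option autoImplicit false

namespace Groth.Agent.Old.H8.GoDown

universe u v

section

variable {P : Type u} {B : Type v} [CommRing P] [CommRing B] [Algebra P B]

/-- The ideal of elements of `B` which are multiplied into `Q` by a power of `r`. -/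
def satIdeal (r : B) (hr : IsIntegral P r) (H : ∀ x : B, ∃ m : ℕ, IsIntegral P (r ^ m * x))
    (Q : Ideal (integralClosure P B)) : Ideal B where
  carrier := {x | ∃ (m : ℕ) (h : IsIntegral P (r ^ m * x)),
    (⟨r ^ m * x, h⟩ : integralClosure P B) ∈ Q}
  zero_mem' := ⟨0, by simpa using isIntegral_zero, by
    convert Q.zero_mem using 1
    ext
    simp⟩
  add_mem' := by
    rintro x y ⟨m, hm, hmQ⟩ ⟨k, hk, hkQ⟩
    have e : r ^ (m + k) * (x + y) = r ^ k * (r ^ m * x) + r ^ m * (r ^ k * y) := by ring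
    refine ⟨m + k, ?_, ?_⟩
    · rw [e]
      exact ((hr.pow k).mul hm).add ((hr.pow m).mul hk)
    · have := Q.add_mem (Q.mul_mem_left ⟨r ^ k, hr.pow k⟩ hmQ)
        (Q.mul_mem_left ⟨r ^ m, hr.pow m⟩ hkQ)
      convert this using 1
      ext
      simpa using e
  smul_mem' := by
    rintro c x ⟨m, hm, hmQ⟩
    obtain ⟨k, hk⟩ := H c
    have e : r ^ (k + m) * (c * x) = (r ^ k * c) * (r ^ m * x) := by ring
    refine ⟨k + m, ?_, ?_⟩
    · rw [smul_eq_mul, e]
      exact hk.mul hm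
    · have := Q.mul_mem_left ⟨r ^ k * c, hk⟩ hmQ
      convert this using 1
      ext
      simpa using e

theorem mem_satIdeal_iff {r : B} {hr : IsIntegral P r}
    {H : ∀ x : B, ∃ m : ℕ, IsIntegral P (r ^ m * x)}
    {Q : Ideal (integralClosure P B)} {x : B} : x ∈ satIdeal r hr H Q ↔
      ∃ (m : ℕ) (h : IsIntegral P (r ^ m * x)),
    (⟨r ^ m * x, h⟩ : integralClosure P B) ∈ Q := Iff.rfl

theorem mem_satIdeal_of_isIntegral {r : B} {hr : IsIntegral P r}
    {H : ∀ x : B, ∃ m : ℕ, IsIntegral P (r ^ m * x)}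
    {Q : Ideal (integralClosure P B)} [Q.IsPrime]
    (hrQ : (⟨r, hr⟩ : integralClosure P B) ∉ Q) {x : B} (hx : IsIntegral P x) :
    x ∈ satIdeal r hr H Q ↔ (⟨x, hx⟩ : integralClosure P B) ∈ Q := by
  constructor
  · rintro ⟨m, hm, hmQ⟩
    have e : (⟨r ^ m * x, hm⟩ : integralClosure P B) =
      (⟨r, hr⟩ : integralClosure P B) ^ m * ⟨x, hx⟩ := by
      ext; simp
    rw [e] at hmQ
    rcases Ideal.IsPrime.mem_or_mem ‹Q.IsPrime› hmQ with h | h
    · exact absurd (Ideal.IsPrime.mem_of_pow_mem ‹Q.IsPrime› _ h) hrQ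
    · exact h
  · intro h
    refine ⟨0, by simpa using hx, ?_⟩
    convert h using 1
    ext
    simp

theorem satIdeal_isPrime {r : B} {hr : IsIntegral P r}
    {H : ∀ x : B, ∃ m : ℕ, IsIntegral P (r ^ m * x)}
    {Q : Ideal (integralClosure P B)} [Q.IsPrime]
    (hrQ : (⟨r, hr⟩ : integralClosure P B) ∉ Q) : (satIdeal r hr H Q).IsPrime := by
  constructor
  · rw [Ne, Ideal.eq_top_iff_one, mem_satIdeal_of_isIntegral hrQ isIntegral_one]
    exact (Ideal.ne_top_iff_one _).mp (Ideal.IsPrime.ne_top ‹_›)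
  · intro x y hxy
    obtain ⟨m, hm, hmQ⟩ := hxy
    obtain ⟨k, hk⟩ := H x
    obtain ⟨l, hl⟩ := H y
    have e : (⟨r, hr⟩ : integralClosure P B) ^ (k + l) * ⟨r ^ m * (x * y), hm⟩ =
      (⟨r, hr⟩ : integralClosure P B) ^ m * (⟨r ^ k * x, hk⟩ * ⟨r ^ l * y, hl⟩) := by
      ext
      simp
      ring
    have h1 : (⟨r, hr⟩ : integralClosure P B) ^ m * (⟨r ^ k * x, hk⟩ * ⟨r ^ l * y, hl⟩) ∈ Q := by
      rw [← e]
      exact Q.mul_mem_left _ hmQ
    rcases Ideal.IsPrime.mem_or_mem ‹Q.IsPrime› h1 with h | h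
    · exact absurd (Ideal.IsPrime.mem_of_pow_mem ‹Q.IsPrime› _ h) hrQ
    · rcases Ideal.IsPrime.mem_or_mem ‹Q.IsPrime› h with h | h
      · exact Or.inl ⟨k, hk, h⟩
      · exact Or.inr ⟨l, hl, h⟩

end

section

variable {P : Type u} {B : Type v} [CommRing P] [CommRing B] [Algebra P B]

/-- Going down at a quasi-finite point, avoiding a proper closed subset. -/
theorem exists_prime_of_zmt [IsDomain P] [IsIntegrallyClosed P] [IsDomain B] [FaithfulSMul P B]
    (q' : Ideal B) [q'.IsPrime] (hZ : Algebra.ZariskisMainProperty P q')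
    (h : B) (hh : h ≠ 0) :
    ∃ (F : P) (r : B), F ≠ 0 ∧ r ∉ q' ∧ IsIntegral P r ∧ (∀ x : B, ∃ m, IsIntegral P (r ^ m * x)) ∧
      ∀ n₁ : Ideal P, n₁.IsPrime → n₁ ≤ q'.comap (algebraMap P B) →
        F ∉ n₁ → ∃ q₁ : Ideal B, q₁.IsPrime ∧ q₁ ≤ q' ∧ q₁.comap (algebraMap P B) = n₁ ∧
          h ∉ q₁ ∧ r ∉ q₁ := by
  obtain ⟨r, hrq', hr, H⟩ := Algebra.zariskisMainProperty_iff.mp hZ
  have hr0 : r ≠ 0 := fun h => hrq' (h ▸ q'.zero_mem)
  obtain ⟨m, hm⟩ := H h
  let B' := integralClosure P B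
  let rr : B' := ⟨r, hr⟩
  let e' : B' := ⟨r ^ m * h, hm⟩
  have he : rr * e' ≠ 0 := by
    intro h0
    have : r * (r ^ m * h) = 0 := congrArg Subtype.val h0
    simp [hr0, hh] at this
  have h1 : (Ideal.span {rr * e'}).comap (algebraMap P B') ≠ ⊥ :=
    Ideal.comap_ne_bot_of_integral_mem he (Ideal.mem_span_singleton_self _)
      (Algebra.IsIntegral.isIntegral _)
  obtain ⟨F, hF, hF0⟩ := Submodule.exists_mem_ne_zero_of_ne_bot h1
  refine ⟨F, r, hF0, hrq', hr, H, ?_⟩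
  intro n₁ hn₁ hn₁q' hFn₁
  let Q' : Ideal B' := q'.comap (algebraMap B' B)
  have : Q'.IsPrime := inferInstance
  let n' : Ideal P := q'.comap (algebraMap P B)
  have : Q'.LiesOver n' := ⟨by
    rw [Ideal.under_def, Ideal.comap_comap, ← IsScalarTower.algebraMap_eq P B' B]⟩
  obtain ⟨Q₁, hQ₁le, hQ₁p, hQ₁⟩ := Ideal.exists_ideal_le_liesOver_of_le (p := n₁) (q := n') Q' hn₁q'
  have hFQ : algebraMap P B' F ∉ Q₁ := by
    intro hmem
    apply hFn₁
    rw [hQ₁.over]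
    exact hmem
  have heQ : rr * e' ∉ Q₁ := by
    intro hmem
    apply hFQ
    obtain ⟨c, hc⟩ := Ideal.mem_span_singleton'.mp hF
    rw [← hc]
    exact Q₁.mul_mem_left _ hmem
  have hrQ : rr ∉ Q₁ := fun h => heQ (Q₁.mul_mem_right _ h)
  have heQ' : e' ∉ Q₁ := fun h => heQ (Q₁.mul_mem_left _ h)
  have hprime : (satIdeal r hr H Q₁).IsPrime := satIdeal_isPrime hrQ
  refine ⟨satIdeal r hr H Q₁, hprime, ?_, ?_, ?_, ?_⟩
  · rintro x ⟨k, hk, hkQ⟩
    have h2 : r ^ k * x ∈ q' := hQ₁le hkQ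
    rcases Ideal.IsPrime.mem_or_mem ‹q'.IsPrime› h2 with h | h
    · exact absurd (Ideal.IsPrime.mem_of_pow_mem ‹q'.IsPrime› _ h) hrq'
    · exact h
  · ext x
    rw [Ideal.mem_comap, mem_satIdeal_of_isIntegral hrQ isIntegral_algebraMap, hQ₁.over]
    rfl
  · intro hmem
    obtain ⟨k, hk, hkQ⟩ := hmem
    have h3 : rr ^ m * ⟨r ^ k * h, hk⟩ = rr ^ k * e' := by
      ext
      simp [rr, e']
      ring
    have h4 : rr ^ k * e' ∈ Q₁ := h3 ▸ Q₁.mul_mem_left _ hkQ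
    rcases Ideal.IsPrime.mem_or_mem hQ₁p h4 with h | h
    · exact hrQ (Ideal.IsPrime.mem_of_pow_mem hQ₁p _ h)
    · exact heQ' h
  · rw [mem_satIdeal_of_isIntegral hrQ hr]
    exact hrQ

end

end Groth.Agent.Old.H8.GoDown
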