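import Groth.Agent.Old.H8.ValPar
import Mathlib.Algebra.MvPolynomial.Funext
import Mathlib.RingTheory.IntegralDomain
import Mathlib.RingTheory.Algebraic.Integral
import Mathlib.RingTheory.Polynomial.UniqueFactorization

/-!
Lifting a closed point of the special fibre of a finite type domain over a valuation ring to a
closed point of the generic fibre, outside a proper closed subset.
-/

set_option autoImplicit false

namespace Groth.Agent.Old.H8.ValCase

universe u v

open MvPolynomial IsLocalRing

/-- Polynomial rings over integrally closed domains are integrally closed. -/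
theorem isIntegrallyClosed_mvPolynomial (R : Type u) [CommRing R] [IsDomain R]
    [IsIntegrallyClosed R] (n : ℕ) : IsIntegrallyClosed (MvPolynomial (Fin n) R) := by
  induction n with
  | zero =>
    exact IsIntegrallyClosed.of_equiv (MvPolynomial.isEmptyAlgEquiv R (Fin 0)).symm.toRingEquiv
  | succ n ih =>
    exact IsIntegrallyClosed.of_equiv (MvPolynomial.finSuccEquiv R n).symm.toRingEquiv

theorem infinite_maximalIdeal {R : Type u} [CommRing R] [IsDomain R] [IsLocalRing R]
    (hR : maximalIdeal R ≠ ⊥) : (maximalIdeal R : Set R).Infinite := by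
  intro hfin
  obtain ⟨a, ha, ha0⟩ := Submodule.exists_mem_ne_zero_of_ne_bot hR
  have hfin' : Finite (maximalIdeal R : Set R) := hfin
  have : Finite R := Finite.of_injective
    (fun x : R => (⟨x * a, (maximalIdeal R).mul_mem_left x ha⟩ : (maximalIdeal R : Set R)))
    (by
      intro x y hxy
      have := congrArg Subtype.val hxy
      exact mul_right_cancel₀ ha0 this)
  exact hR (IsLocalRing.isField_iff_maximalIdeal_eq.mp (Finite.isField_of_domain R))

theorem exists_prime_val {R : Type u} {B : Type v} [CommRing R] [IsDomain R] [ValuationRing R]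
    [IsIntegrallyClosed R]
    (hR : maximalIdeal R ≠ ⊥)
    [CommRing B] [IsDomain B] [Algebra R B] [FaithfulSMul R B] [Algebra.FiniteType R B]
    (q' : Ideal B) [hqm : q'.IsMaximal] (hq' : q'.comap (algebraMap R B) = maximalIdeal R)
    (h : B) (hh : h ≠ 0) :
    ∃ q₁ : Ideal B, q₁.IsPrime ∧ q₁ ≤ q' ∧ q₁.comap (algebraMap R B) = ⊥ ∧ h ∉ q₁ ∧
      Algebra.IsAlgebraic R (B ⧸ q₁) := by
  obtain ⟨n, t, ht, hinj, hqf⟩ := Groth.Agent.Old.H8.ValPar.exists_param q' hq'
  let P := MvPolynomial (Fin n) R
  let : Algebra P B := (MvPolynomial.aeval t : MvPolynomial (Fin n) R →ₐ[R] B).toAlgebra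
  have hqf' : Algebra.QuasiFiniteAt P q' := hqf
  have hst : IsScalarTower R P B := IsScalarTower.of_algebraMap_eq' (by
      ext r
      exact ((MvPolynomial.aeval t : MvPolynomial (Fin n) R →ₐ[R] B).commutes r).symm)
  have hft : Algebra.FiniteType P B := Algebra.FiniteType.of_restrictScalars_finiteType R P B
  have hfaith : FaithfulSMul P B := (faithfulSMul_iff_algebraMap_injective P B).mpr hinj
  have hic : IsIntegrallyClosed P := isIntegrallyClosed_mvPolynomial R n
  have hZ : Algebra.ZariskisMainProperty P q' := .of_finiteType q'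
  obtain ⟨F, r, hF0, hr, hri, H, key⟩ := Groth.Agent.Old.H8.GoDown.exists_prime_of_zmt q' hZ h hh
  have hinf := infinite_maximalIdeal hR
  obtain ⟨y, hy, hyF⟩ : ∃ y : Fin n → R, (∀ i, y i ∈ maximalIdeal R) ∧
      MvPolynomial.eval y F ≠ 0 := by
    by_contra hcon
    push Not at hcon
    apply hF0
    refine MvPolynomial.funext_set (fun _ => (maximalIdeal R : Set R)) (fun _ => hinf) ?_
    intro x hx
    rw [hcon x (fun i => hx i (Set.mem_univ i)), map_zero]
  let n₁ : Ideal P := RingHom.ker (MvPolynomial.eval y)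
  have hn₁ : n₁.IsPrime := RingHom.ker_isPrime _
  have hmk : (Ideal.Quotient.mk q').comp (algebraMap P B) =
      ((Ideal.Quotient.mk q').comp (algebraMap R B)).comp (MvPolynomial.eval y) := by
    apply MvPolynomial.ringHom_ext
    · intro a
      have h1 : algebraMap P B (C a) = algebraMap R B a := by
        change (MvPolynomial.aeval t : MvPolynomial (Fin n) R →ₐ[R] B) (C a) = _
        rw [MvPolynomial.aeval_C]
      simp only [RingHom.comp_apply, h1, MvPolynomial.eval_C]
    · intro i
      have h1 : algebraMap P B (X i) = t i := by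
        change (MvPolynomial.aeval t : MvPolynomial (Fin n) R →ₐ[R] B) (X i) = _
        rw [MvPolynomial.aeval_X]
      simp only [RingHom.comp_apply, h1, MvPolynomial.eval_X]
      rw [Ideal.Quotient.eq_zero_iff_mem.mpr (ht i), eq_comm, Ideal.Quotient.eq_zero_iff_mem,
        ← Ideal.mem_comap, hq']
      exact hy i
  have hn₁q' : n₁ ≤ q'.comap (algebraMap P B) := by
    intro G hG
    rw [Ideal.mem_comap, ← Ideal.Quotient.eq_zero_iff_mem]
    have h1 := congrArg (fun g => g G) hmk
    simp only [RingHom.comp_apply] at h1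
    rw [h1, (RingHom.mem_ker).mp hG, map_zero, map_zero]
  have hFn₁ : F ∉ n₁ := fun hmem => hyF ((RingHom.mem_ker).mp hmem)
  obtain ⟨q₁, hq₁p, hq₁le, hq₁c, hhq₁, hrq₁⟩ := key n₁ hn₁ hn₁q' hFn₁
  refine ⟨q₁, hq₁p, hq₁le, ?_, hhq₁, ?_⟩
  · rw [IsScalarTower.algebraMap_eq R P B, ← Ideal.comap_comap, hq₁c, eq_bot_iff]
    intro a ha
    rw [Ideal.mem_comap] at ha
    have h1 : MvPolynomial.eval y (C a) = 0 := (RingHom.mem_ker).mp ha
    rwa [MvPolynomial.eval_C] at h1
  · have hmk₁ : (Ideal.Quotient.mk q₁).comp (algebraMap P B) =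
        (algebraMap R (B ⧸ q₁)).comp (MvPolynomial.eval y) := by
      apply MvPolynomial.ringHom_ext
      · intro a
        have h1 : algebraMap P B (C a) = algebraMap R B a := by
          change (MvPolynomial.aeval t : MvPolynomial (Fin n) R →ₐ[R] B) (C a) = _
          rw [MvPolynomial.aeval_C]
        simp only [RingHom.comp_apply, h1, MvPolynomial.eval_C]
        rfl
      · intro i
        simp only [RingHom.comp_apply, MvPolynomial.eval_X]
        have h2 : (X i - C (y i) : P) ∈ n₁ := by
          rw [RingHom.mem_ker, map_sub]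
          exact (congrArg₂ (· - ·) (MvPolynomial.eval_X i) (MvPolynomial.eval_C (y i))).trans
            (sub_self _)
        rw [← hq₁c, Ideal.mem_comap, map_sub] at h2
        have h1 : algebraMap P B (C (y i)) = algebraMap R B (y i) := by
          change (MvPolynomial.aeval t : MvPolynomial (Fin n) R →ₐ[R] B) (C (y i)) = _
          rw [MvPolynomial.aeval_C]
        rw [h1, ← Ideal.Quotient.eq_zero_iff_mem, map_sub, sub_eq_zero] at h2
        rw [h2]
        rfl
    have hint : ∀ b : B, IsIntegral P b → IsIntegral R (Ideal.Quotient.mk q₁ b) := by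
      rintro b ⟨f, hf, hfb⟩
      refine ⟨f.map (MvPolynomial.eval y), hf.map _, ?_⟩
      rw [Polynomial.eval₂_map, ← hmk₁, ← Polynomial.hom_eval₂, hfb, map_zero]
    refine ⟨fun z => ?_⟩
    obtain ⟨x, rfl⟩ := Ideal.Quotient.mk_surjective z
    obtain ⟨m, hm⟩ := H x
    have h1 := hint _ hm
    have h2 := hint _ (hri.pow m)
    rw [map_mul] at h1
    have h3 : (Ideal.Quotient.mk q₁) (r ^ m) ≠ 0 := by
      rw [Ne, Ideal.Quotient.eq_zero_iff_mem]
      exact fun hmem => hrq₁ (Ideal.IsPrime.mem_of_pow_mem hq₁p _ hmem)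
    exact IsAlgebraic.of_mul (mem_nonZeroDivisors_of_ne_zero h3) h2.isAlgebraic h1.isAlgebraic

end Groth.Agent.Old.H8.ValCase
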