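import Groth.Agent.Old.H8.DimBound
import Groth.Agent.Old.H8.GoDown
import Mathlib.RingTheory.Valuation.ValuationRing
import Mathlib.RingTheory.Spectrum.Prime.Jacobson
import Mathlib.RingTheory.Jacobson.Ring
import Mathlib.RingTheory.LocalRing.ResidueField.Basic

/-!
A finite type domain over a valuation ring admits, at a closed point of the special fibre,
an injective map from a polynomial ring that is quasi-finite at that point and sends the variables
into the point.
-/

set_option autoImplicit false

namespace Groth.Agent.Old.H8.ValPar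

universe u v

open MvPolynomial IsLocalRing

theorem exists_dvd_all {R : Type u} [CommRing R] [IsDomain R] [ValuationRing R] {ι : Type*}
    (s : Finset ι) (hs : s.Nonempty) (f : ι → R) : ∃ i ∈ s, ∀ j ∈ s, f i ∣ f j := by
  classical
  induction hs using Finset.Nonempty.cons_induction with
  | singleton a => exact ⟨a, by simp, by simp⟩
  | cons a s ha hs ih =>
    obtain ⟨i, hi, h⟩ := ih
    rcases ValuationRing.dvd_total (f a) (f i) with h1 | h1
    · refine ⟨a, by simp, ?_⟩
      intro j hj
      rcases Finset.mem_cons.mp hj with rfl | hj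
      · exact dvd_rfl
      · exact h1.trans (h j hj)
    · refine ⟨i, by simp [hi], ?_⟩
      intro j hj
      rcases Finset.mem_cons.mp hj with rfl | hj
      · exact h1
      · exact h j hj

theorem exists_primitive {R : Type u} [CommRing R] [IsDomain R] [ValuationRing R] {σ : Type*}
    (F : MvPolynomial σ R) (hF : F ≠ 0) :
    ∃ (c : R) (F₁ : MvPolynomial σ R), c ≠ 0 ∧ F = C c * F₁ ∧ ∃ i, F₁.coeff i = 1 := by
  obtain ⟨i, hi, h⟩ := exists_dvd_all F.support (by simpa using hF) (fun i => F.coeff i)
  have hc : F.coeff i ≠ 0 := by simpa using hi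
  have hdvd : C (F.coeff i) ∣ F := by
    rw [MvPolynomial.C_dvd_iff_dvd_coeff]
    intro j
    by_cases hj : j ∈ F.support
    · exact h j hj
    · have : F.coeff j = 0 := by simpa using hj
      rw [this]
      exact dvd_zero _
  obtain ⟨F₁, hF₁⟩ := hdvd
  refine ⟨F.coeff i, F₁, hc, hF₁, i, ?_⟩
  have h2 : F.coeff i = F.coeff i * F₁.coeff i := by
    conv_lhs => rw [hF₁]
    rw [MvPolynomial.coeff_C_mul]
  exact (mul_right_eq_self₀.mp h2.symm).resolve_right hc

theorem quasiFiniteAt_of_minimal {P : Type u} {B : Type v} {D : Type v} [CommRing P] [CommRing B]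
    [CommRing D] [Algebra P B] [Algebra.FiniteType P B] (π : B →+* D)
    (hπ : Function.Surjective π) [IsNoetherianRing D] [IsJacobsonRing D]
    (q' : PrimeSpectrum B) (hqm : q'.asIdeal.IsMaximal)
    (hmin : q'.asIdeal ∈ (RingHom.ker π).minimalPrimes)
    (hfib : ∀ y : PrimeSpectrum B, y.asIdeal.comap (algebraMap P B) =
      q'.asIdeal.comap (algebraMap P B) → RingHom.ker π ≤ y.asIdeal) :
    Algebra.QuasiFiniteAt P q'.asIdeal := by
  apply Algebra.QuasiFiniteAt.of_isOpen_singleton_fiber q'
  have hker : RingHom.ker π ≤ q'.asIdeal := hmin.1.2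
  have hcm : ∀ y : Ideal B, RingHom.ker π ≤ y → (y.map π).comap π = y := by
    intro y hy
    rw [Ideal.comap_map_of_surjective π hπ, ← RingHom.ker_eq_comap_bot, sup_eq_left]
    exact hy
  let lift : ∀ y : PrimeSpectrum B, RingHom.ker π ≤ y.asIdeal → PrimeSpectrum D := fun y hy =>
    ⟨y.asIdeal.map π, Ideal.map_isPrime_of_surjective hπ hy⟩
  have hlift : ∀ y hy, PrimeSpectrum.comap π (lift y hy) = y := by
    intro y hy
    ext1
    exact hcm _ hy
  let qD := lift q' hker
  have hopen : IsOpen ({qD} : Set (PrimeSpectrum D)) := by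
    have hiff : IsOpen ({qD} : Set (PrimeSpectrum D)) ↔
        IsClosed ({qD} : Set (PrimeSpectrum D)) ∧
          StableUnderGeneralization ({qD} : Set (PrimeSpectrum D)) :=
      (PrimeSpectrum.isOpen_singleton_tfae_of_isNoetherian_of_isJacobsonRing qD).out 0 2
    refine hiff.mpr ⟨?_, ?_⟩
    · rw [PrimeSpectrum.isClosed_singleton_iff_isMaximal]
      exact (Ideal.map_eq_top_or_isMaximal_of_surjective π hπ hqm).resolve_left
        (lift q' hker).isPrime.ne_top
    · rw [PrimeSpectrum.stableUnderGeneralization_singleton, ← PrimeSpectrum.isMin_iff]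
      intro z hz
      have h1 : q'.asIdeal ≤ z.asIdeal.comap π := by
        refine hmin.2 ⟨inferInstance, ?_⟩ ?_
        · intro x hx
          rw [Ideal.mem_comap, (RingHom.mem_ker).mp hx]
          exact z.asIdeal.zero_mem
        · rw [← hcm _ hker]
          exact Ideal.comap_mono hz
      exact Ideal.map_le_iff_le_comap.mpr h1
  obtain ⟨U, hU, hUq⟩ := (PrimeSpectrum.isClosedEmbedding_comap_of_surjective D π hπ).isInducing.isOpen_iff.mp hopen
  have : (Subtype.val ⁻¹' U : Set ↑(PrimeSpectrum.comap (algebraMap P B) ⁻¹'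
      {PrimeSpectrum.comap (algebraMap P B) q'})) = {⟨q', rfl⟩} := by
    ext ⟨y, hy⟩
    have hyker : RingHom.ker π ≤ y.asIdeal := hfib y (congrArg PrimeSpectrum.asIdeal hy)
    have key : y ∈ U ↔ y = q' := by
      have h1 : lift y hyker ∈ PrimeSpectrum.comap π ⁻¹' U ↔ lift y hyker = qD := by
        rw [hUq, Set.mem_singleton_iff]
      have h2 : lift y hyker ∈ PrimeSpectrum.comap π ⁻¹' U ↔ y ∈ U := by
        rw [Set.mem_preimage, hlift y hyker]
      rw [← h2, h1]
      constructor
      · intro h
        rw [← hlift y hyker, h]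
        exact hlift q' hker
      · intro h
        subst h
        rfl
    rw [Set.mem_singleton_iff, Subtype.ext_iff]
    exact key
  rw [← this]
  exact hU.preimage continuous_subtype_val

/-- Main parametrization. -/
theorem exists_param {R : Type u} {B : Type v} [CommRing R] [IsDomain R] [ValuationRing R]
    [CommRing B] [IsDomain B] [Algebra R B] [FaithfulSMul R B] [Algebra.FiniteType R B]
    (q' : Ideal B) [hqm : q'.IsMaximal] (hq' : q'.comap (algebraMap R B) = maximalIdeal R) :
    ∃ (n : ℕ) (t : Fin n → B), (∀ i, t i ∈ q') ∧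
      Function.Injective (MvPolynomial.aeval t : MvPolynomial (Fin n) R →ₐ[R] B) ∧
      letI := (MvPolynomial.aeval t : MvPolynomial (Fin n) R →ₐ[R] B).toAlgebra
      Algebra.QuasiFiniteAt (MvPolynomial (Fin n) R) q' := by
  classical
  let k := ResidueField R
  let mB : Ideal B := (maximalIdeal R).map (algebraMap R B)
  let Bs := B ⧸ mB
  let ι : k →+* Bs := Ideal.Quotient.lift (maximalIdeal R)
    ((Ideal.Quotient.mk mB).comp (algebraMap R B)) (by
      intro a ha
      rw [RingHom.comp_apply, Ideal.Quotient.eq_zero_iff_mem]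
      exact Ideal.mem_map_of_mem _ ha)
  let : Algebra k Bs := ι.toAlgebra
  have hsc : IsScalarTower R k Bs := IsScalarTower.of_algebraMap_eq' rfl
  have : Algebra.FiniteType R Bs := Algebra.FiniteType.of_surjective (Ideal.Quotient.mkₐ R mB)
    (Ideal.Quotient.mkₐ_surjective R mB)
  have : Algebra.FiniteType k Bs := Algebra.FiniteType.of_restrictScalars_finiteType R k Bs
  have hnoeth : IsNoetherianRing Bs := Algebra.FiniteType.isNoetherianRing k Bs
  have hjac : IsJacobsonRing Bs := isJacobsonRing_of_finiteType (A := k)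
  have hmB : mB ≤ q' := by
    rw [Ideal.map_le_iff_le_comap, hq']
  have hkermk : RingHom.ker (Ideal.Quotient.mk mB) ≤ q' := by rwa [Ideal.mk_ker]
  let qs : Ideal Bs := q'.map (Ideal.Quotient.mk mB)
  have hqs : qs.IsPrime := Ideal.map_isPrime_of_surjective Ideal.Quotient.mk_surjective hkermk
  have hcomap : qs.comap (Ideal.Quotient.mk mB) = q' := by
    rw [Ideal.comap_map_of_surjective _ Ideal.Quotient.mk_surjective,
      ← RingHom.ker_eq_comap_bot, sup_eq_left]
    exact hkermk
  obtain ⟨S, hS, hcard⟩ := qs.exists_finset_card_eq_height_of_isNoetherianRing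
  let n := S.card
  let s : Fin n → Bs := fun i => (S.equivFin.symm i : Bs)
  have hrange : Set.range s = (S : Set Bs) := by
    ext x
    constructor
    · rintro ⟨i, rfl⟩
      exact (S.equivFin.symm i).2
    · intro hx
      exact ⟨S.equivFin ⟨x, hx⟩, by simp [s]⟩
  have hmin : qs ∈ (Ideal.span (Set.range s)).minimalPrimes := by
    rw [hrange]
    exact hS
  choose t ht using fun i => Ideal.Quotient.mk_surjective (s i)
  have htq : ∀ i, t i ∈ q' := by
    intro i
    rw [← hcomap, Ideal.mem_comap, ht]
    exact hmin.1.2 (Ideal.subset_span ⟨i, rfl⟩)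
  refine ⟨n, t, htq, ?_, ?_⟩
  · rw [injective_iff_map_eq_zero]
    intro F hF
    by_contra hF0
    obtain ⟨c, F₁, hc, hFF, i, hi⟩ := exists_primitive F hF0
    have h1 : (MvPolynomial.aeval t : MvPolynomial (Fin n) R →ₐ[R] B) F₁ = 0 := by
      rw [hFF, map_mul, MvPolynomial.aeval_C] at hF
      exact (mul_eq_zero.mp hF).resolve_left
        (by simpa using hc)
    have h2 := Groth.Agent.Old.H8.DimBound.ker_aeval_eq_bot (k := k) qs hcard.symm s hmin
    have h3 : (F₁.map (residue R)) ∈
        RingHom.ker (MvPolynomial.aeval s : MvPolynomial (Fin n) k →ₐ[k] Bs) := by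
      rw [RingHom.mem_ker]
      have h4 : (MvPolynomial.aeval s : MvPolynomial (Fin n) k →ₐ[k] Bs) (F₁.map (residue R)) =
          Ideal.Quotient.mk mB ((MvPolynomial.aeval t : MvPolynomial (Fin n) R →ₐ[R] B) F₁) := by
        have h5 : ((MvPolynomial.aeval s : MvPolynomial (Fin n) k →ₐ[k] Bs).toRingHom.comp
            (MvPolynomial.map (residue R))) = (Ideal.Quotient.mk mB).comp
            (MvPolynomial.aeval t : MvPolynomial (Fin n) R →ₐ[R] B).toRingHom := by
          apply MvPolynomial.ringHom_ext
          · intro r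
            simp only [AlgHom.toRingHom_eq_coe, RingHom.coe_comp, RingHom.coe_coe,
              Function.comp_apply, map_C, algHom_C]
            rfl
          · intro i
            simp [ht]
        exact congrArg (fun g => g F₁) h5
      rw [h4, h1, map_zero]
    rw [h2, Ideal.mem_bot] at h3
    have h6 := congrArg (MvPolynomial.coeff i) h3
    rw [MvPolynomial.coeff_map, hi, map_one, MvPolynomial.coeff_zero] at h6
    exact one_ne_zero h6
  · let P := MvPolynomial (Fin n) R
    let : Algebra P B := (MvPolynomial.aeval t : MvPolynomial (Fin n) R →ₐ[R] B).toAlgebra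
    change Algebra.QuasiFiniteAt P q'
    have hst : IsScalarTower R P B := IsScalarTower.of_algebraMap_eq' (by
      ext r
      exact ((MvPolynomial.aeval t : MvPolynomial (Fin n) R →ₐ[R] B).commutes r).symm)
    have : Algebra.FiniteType P B := Algebra.FiniteType.of_restrictScalars_finiteType R P B
    let π : B →+* (Bs ⧸ Ideal.span (Set.range s)) :=
      (Ideal.Quotient.mk (Ideal.span (Set.range s))).comp (Ideal.Quotient.mk mB)
    have hπ : Function.Surjective π :=
      Ideal.Quotient.mk_surjective.comp Ideal.Quotient.mk_surjective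
    have hkerπ : RingHom.ker π = (Ideal.span (Set.range s)).comap (Ideal.Quotient.mk mB) := by
      rw [← RingHom.comap_ker, Ideal.mk_ker]
    refine quasiFiniteAt_of_minimal (P := P) π hπ ⟨q', hqm.isPrime⟩ hqm ?_ ?_
    · rw [hkerπ, Ideal.comap_minimalPrimes_eq_of_surjective Ideal.Quotient.mk_surjective]
      exact ⟨qs, hmin, hcomap⟩
    · intro y hy
      have hmy : mB ≤ y.asIdeal := by
        rw [Ideal.map_le_iff_le_comap]
        intro a ha
        have h1 : algebraMap R P a ∈ y.asIdeal.comap (algebraMap P B) := by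
          rw [hy, Ideal.mem_comap, ← IsScalarTower.algebraMap_apply]
          exact hmB (Ideal.mem_map_of_mem _ ha)
        rw [Ideal.mem_comap, ← IsScalarTower.algebraMap_apply] at h1
        exact h1
      have hty : ∀ i, t i ∈ y.asIdeal := by
        intro i
        have h0 : algebraMap P B (X i) = t i := MvPolynomial.aeval_X t i
        have h1 : (X i : P) ∈ y.asIdeal.comap (algebraMap P B) := by
          rw [hy, Ideal.mem_comap, h0]
          exact htq i
        rwa [Ideal.mem_comap, h0] at h1
      have hcy : (y.asIdeal.map (Ideal.Quotient.mk mB)).comap (Ideal.Quotient.mk mB) =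
          y.asIdeal := by
        rw [Ideal.comap_map_of_surjective _ Ideal.Quotient.mk_surjective,
          ← RingHom.ker_eq_comap_bot, sup_eq_left, Ideal.mk_ker]
        exact hmy
      rw [hkerπ, ← hcy]
      apply Ideal.comap_mono
      rw [Ideal.span_le]
      rintro _ ⟨i, rfl⟩
      rw [← ht]
      exact Ideal.mem_map_of_mem _ (hty i)

end Groth.Agent.Old.H8.ValPar
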